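import Cfsg.Agent.Lib.ZStar.PProd
import Cfsg.Agent.Lib.Invol.Isolated
import Cfsg.Prelude.Def_CaseTheorems

/-!
# Corollaries of the Z*-theorem
-/

set_option autoImplicit false
set_option linter.unusedSectionVars false
set_option linter.style.haveILetI false

namespace Cfsg.Agent.Lib.ZStar

open scoped commutatorElement
open Cfsg (IsIsolatedInvolution pCore pPrimeCore oddCore)
open Cfsg.Agent.Lib.Invol

variable {G : Type*} [Group G] [Finite G]

theorem le_oddCore {N : Subgroup G} (hN : N.Normal) (hO : Odd (Nat.card N)) : N ≤ oddCore G :=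
  Cfsg.Agent.Lib.Core.le_pPrimeCore hN (Nat.coprime_two_right.mpr hO)

theorem oddCore_odd : Odd (Nat.card (oddCore G)) :=
  Nat.coprime_two_right.mp (Cfsg.Agent.Lib.Core.pPrimeCore_coprime 2 G)

theorem oddCore_normal : (oddCore G).Normal := inferInstance

theorem mem_oddCore_of_isolated {x : G} (hx : IsIsolatedInvolution x) (g : G) :
    x * (g * x * g⁻¹) ∈ oddCore G := by
  obtain ⟨N, hNn, hNo, hN⟩ := zstarProp G x hx
  exact le_oddCore hNn hNo (hN g)

theorem isKleinFour_of' {T : Subgroup G} (hc : Nat.card T = 4) (hs : ∀ t ∈ T, t * t = 1) :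
    IsKleinFour T := by
  haveI : Nontrivial T := Finite.one_lt_card_iff_nontrivial.1 (by omega)
  refine IsKleinFour.mk hc ?_
  rw [Monoid.exponent_eq_prime_iff Nat.prime_two]
  intro g hg
  apply orderOf_eq_prime
  · exact Subtype.ext (by rw [pow_two]; exact hs g g.2)
  · exact hg

/-- Two commuting distinct involutions generate a four-group. -/
theorem exists_klein {z y : G} (hz : z * z = 1) (hy : y * y = 1) (hc : Commute z y) (hz1 : z ≠ 1)
    (hy1 : y ≠ 1) (hzy : z ≠ y) : ∃ E : Subgroup G, IsKleinFour E := by
  classical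
  have hc' : z * y = y * z := hc
  have hzyy : z * y * y = z := by rw [mul_assoc, hy, mul_one]
  have hzzy : z * (z * y) = y := by rw [← mul_assoc, hz, one_mul]
  have hyzy : y * (z * y) = z := by rw [← mul_assoc, ← hc', hzyy]
  have hzyz : z * y * z = y := by rw [hc', mul_assoc, hz, mul_one]
  have hzyzy : z * y * (z * y) = 1 := by rw [← mul_assoc, hzyz, hy]
  let E : Subgroup G :=
    { carrier := {1, z, y, z * y}
      one_mem' := by simp
      inv_mem' := by
        intro a ha
        simp only [Set.mem_insert_iff, Set.mem_singleton_iff] at ha ⊢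
        rcases ha with rfl | rfl | rfl | rfl
        · simp
        · right; left; exact inv_eq_of_mul_self hz
        · right; right; left; exact inv_eq_of_mul_self hy
        · right; right; right; exact inv_eq_of_mul_self hzyzy
      mul_mem' := by
        intro a b ha hb
        simp only [Set.mem_insert_iff, Set.mem_singleton_iff] at ha hb ⊢
        have hyz : y * z = z * y := hc'.symm
        rcases ha with rfl | rfl | rfl | rfl <;> rcases hb with rfl | rfl | rfl | rfl <;>
          simp only [one_mul, mul_one, hz, hy, hzyy, hzzy, hyzy, hzyz, hzyzy, hyz, true_or, or_true] }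
  refine ⟨E, isKleinFour_of' ?_ ?_⟩
  · have hcard : (({1, z, y, z * y} : Finset G) : Set G) = (E : Set G) := by
      ext a
      simp [E]
    have h1 : Nat.card E = ({1, z, y, z * y} : Finset G).card := by
      have : Nat.card (E : Set G) = Nat.card ((({1, z, y, z * y} : Finset G) : Set G)) := by
        rw [hcard]
      simpa using this
    rw [h1]
    have hne1 : z * y ≠ 1 := fun h => hzy (by
      have := eq_inv_of_mul_eq_one_left h
      rwa [inv_eq_of_mul_self hy] at this)
    have hne2 : z * y ≠ z := fun h => hy1 (by simpa using h)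
    have hne3 : z * y ≠ y := fun h => hz1 (by simpa using h)
    rw [Finset.card_insert_of_notMem, Finset.card_insert_of_notMem, Finset.card_insert_of_notMem,
      Finset.card_singleton]
    · simp [hne3.symm]
    · simp [hzy, hne2.symm]
    · simp [hz1.symm, hy1.symm, hne1.symm]
  · intro t ht
    have ht' : t ∈ ({1, z, y, z * y} : Set G) := ht
    simp only [Set.mem_insert_iff, Set.mem_singleton_iff] at ht'
    rcases ht' with rfl | rfl | rfl | rfl
    · simp
    · exact hz
    · exact hy
    · exact hzyzy

/-- In a group without four-subgroups every involution is isolated. -/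
theorem isolated_of_no_klein (hrank : ∀ E : Subgroup G, ¬ IsKleinFour E) {z : G}
    (hz : orderOf z = 2) : IsIsolatedInvolution z := by
  refine ⟨hz, fun g hc => ?_⟩
  by_contra hne
  have hzz := mul_self_of_order_two hz
  have hz1 : z ≠ 1 := by
    rintro rfl
    simp at hz
  have hy : (g * z * g⁻¹) * (g * z * g⁻¹) = 1 := by
    calc g * z * g⁻¹ * (g * z * g⁻¹) = g * (z * z) * g⁻¹ := by group
      _ = 1 := by rw [hzz]; group
  have hy1 : g * z * g⁻¹ ≠ 1 := by
    intro h
    apply hz1
    have h2 : g⁻¹ * (g * z * g⁻¹) * g = g⁻¹ * 1 * g := by rw [h]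
    simpa [mul_assoc] using h2
  obtain ⟨E, hE⟩ := exists_klein hzz hy hc hz1 hy1 (Ne.symm hne)
  exact hrank E hE

/-- The derived subgroup lies in `O_p(G)` when `G` is generated by a class of involutions with
products of `p`-power order. -/
theorem commutator_le_pCore {p : ℕ} (hp : p.Prime) (hodd : p ≠ 2) {D : Set G}
    (hinv : ∀ d ∈ D, orderOf d = 2) (hconj : ∃ d ∈ D, D = conjugatesOf d)
    (hgen : Subgroup.closure D = ⊤)
    (hprod : ∀ x ∈ D, ∀ y ∈ D, x ≠ y → ∃ k : ℕ, orderOf (x * y) = p ^ k) :
    commutator G ≤ pCore p G := by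
  obtain ⟨d, hd, rfl⟩ := hconj
  have hdd := hinv d hd
  have hprod' : ∀ a ∈ conjugatesOf d, ∀ b ∈ conjugatesOf d, ∃ k : ℕ, orderOf (a * b) = p ^ k := by
    intro a ha b hb
    by_cases hab : a = b
    · subst hab
      refine ⟨0, ?_⟩
      rw [mul_self_of_order_two (hinv a ha)]
      simp
    · exact hprod a ha b hb hab
  have h := prod_conj_mem_pCore hp hodd d hdd hprod'
  set N := pCore p G with hN
  have hNn : N.Normal := inferInstance
  -- every element of the class has the same image in the quotient
  let f : G →* G ⧸ N := QuotientGroup.mk' N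
  have hf : ∀ a ∈ conjugatesOf d, f a = f d := by
    intro a ha
    have h1 : a * d ∈ N := h a ha d hd
    have h2 : d⁻¹ = d := inv_eq_of_order_two hdd
    have h3 : a⁻¹ = a := inv_eq_of_order_two (hinv a ha)
    show (a : G ⧸ N) = (d : G ⧸ N)
    rw [QuotientGroup.eq, h3]
    exact h1
  have hcomm : ∀ x y : G, Commute (f x) (f y) := by
    have hcl : ∀ x : G, f x ∈ Subgroup.zpowers (f d) := by
      intro x
      have hx : x ∈ Subgroup.closure (conjugatesOf d) := by
        rw [hgen]
        trivial
      induction hx using Subgroup.closure_induction with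
      | mem a ha =>
        rw [hf a ha]
        exact Subgroup.mem_zpowers _
      | one => simp
      | mul a b _ _ ha hb =>
        rw [map_mul]
        exact Subgroup.mul_mem _ ha hb
      | inv a _ ha =>
        rw [map_inv]
        exact Subgroup.inv_mem _ ha
    intro x y
    obtain ⟨i, hi⟩ := hcl x
    obtain ⟨j, hj⟩ := hcl y
    rw [← hi, ← hj]
    exact (Commute.refl _).zpow_zpow i j
  rw [commutator_eq_closure, Subgroup.closure_le]
  rintro _ ⟨x, y, rfl⟩
  have : f ⁅x, y⁆ = 1 := by
    rw [map_commutatorElement]
    exact commutatorElement_eq_one_iff_commute.mpr (hcomm x y)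
  exact (QuotientGroup.eq_one_iff _).mp this

end Cfsg.Agent.Lib.ZStar
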