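import Cfsg.Agent.Lib.ZStar.Cor

/-!
# Sylow covering lemmas and fusion of a marked central involution
-/

set_option autoImplicit false
set_option linter.unusedSectionVars false
set_option linter.style.haveILetI false

namespace Cfsg.Agent.Lib.ZStar

open Cfsg (IsIsolatedInvolution pCore pPrimeCore oddCore)
open Cfsg.Agent.Lib.Invol

variable {G : Type*} [Group G] [Finite G]

theorem mem_smul_sylow {p : ℕ} [Fact p.Prime] (P : Sylow p G) (g x : G) :
    x ∈ ((g • P : Sylow p G) : Subgroup G) ↔ g⁻¹ * x * g ∈ (P : Subgroup G) := by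
  rw [Sylow.coe_subgroup_smul, Subgroup.mem_pointwise_smul_iff_inv_smul_mem, MulAut.smul_def,
    MulAut.conj_inv_apply]

theorem conj_mem_smul_sylow {p : ℕ} [Fact p.Prime] (P : Sylow p G) (g x : G)
    (hx : x ∈ (P : Subgroup G)) : g * x * g⁻¹ ∈ ((g • P : Sylow p G) : Subgroup G) := by
  rw [mem_smul_sylow]
  simpa [mul_assoc] using hx

/-- A `p`-subgroup of `K` is conjugate under `K` into any Sylow subgroup (of `G`) contained in `K`. -/
theorem sylow_cover {p : ℕ} [Fact p.Prime] (K : Subgroup G) (U : Sylow p G)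
    (hU : (U : Subgroup G) ≤ K) (A : Subgroup G) (hA : IsPGroup p A) (hAK : A ≤ K) :
    ∃ k ∈ K, A ≤ ((k • U : Sylow p G) : Subgroup G) := by
  let U' : Sylow p K := U.subtype hU
  have hA' : IsPGroup p (A.subgroupOf K) := hA.comap_of_injective K.subtype K.subtype_injective
  obtain ⟨R, hR⟩ := hA'.exists_le_sylow
  obtain ⟨k, hk⟩ := MulAction.exists_smul_eq K U' R
  refine ⟨k, k.2, fun a ha => ?_⟩
  have h1 : (⟨a, hAK ha⟩ : K) ∈ (R : Subgroup K) := hR (Subgroup.mem_subgroupOf.mpr ha)
  rw [← hk, mem_smul_sylow] at h1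
  rw [mem_smul_sylow]
  have h2 := h1
  rw [Sylow.coe_subtype, Subgroup.mem_subgroupOf] at h2
  exact h2

theorem sylow_eq_of_le {p : ℕ} [Fact p.Prime] {P Q : Sylow p G}
    (h : (P : Subgroup G) ≤ Q) : P = Q :=
  Sylow.ext (P.is_maximal' Q.isPGroup' h).symm

/-- Two Sylow subgroups contained in `K` are conjugate under `K`. -/
theorem sylow_conj_in {p : ℕ} [Fact p.Prime] (K : Subgroup G) (U V : Sylow p G)
    (hU : (U : Subgroup G) ≤ K) (hV : (V : Subgroup G) ≤ K) :
    ∃ k ∈ K, k • U = V := by
  obtain ⟨k, hk, h⟩ := sylow_cover K U hU V V.isPGroup' hV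
  exact ⟨k, hk, (sylow_eq_of_le h).symm⟩

/-- Normalizers grow in `p`-groups. -/
theorem exists_mem_normalizer_of_lt {p : ℕ} [Fact p.Prime] (R : Sylow p G) {T : Subgroup G}
    (hT : T ≤ R) (hne : T ≠ R) :
    ∃ x ∈ (R : Subgroup G), x ∉ T ∧ x ∈ Subgroup.normalizer (T : Set G) := by
  haveI : Group.IsNilpotent (R : Subgroup G) := R.isPGroup'.isNilpotent
  have hnc := Group.normalizerCondition_of_isNilpotent (G := (R : Subgroup G))
  have hlt : T.subgroupOf R < ⊤ := by
    refine lt_top_iff_ne_top.mpr fun h => hne ?_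
    refine le_antisymm hT fun r hr => ?_
    have : (⟨r, hr⟩ : (R : Subgroup G)) ∈ T.subgroupOf R := by
      rw [h]
      trivial
    exact Subgroup.mem_subgroupOf.mp this
  have h := hnc _ hlt
  obtain ⟨x, hx, hxn⟩ := SetLike.exists_of_lt h
  refine ⟨x, x.2, fun hc => hxn (Subgroup.mem_subgroupOf.mpr hc), ?_⟩
  have hN := Subgroup.mem_normalizer_iff.mp hx
  rw [Subgroup.mem_normalizer_iff]
  intro t
  constructor
  · intro ht
    have h1 := (hN ⟨t, hT ht⟩).mp (Subgroup.mem_subgroupOf.mpr ht)
    exact Subgroup.mem_subgroupOf.mp h1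
  · intro ht
    have htR : t ∈ (R : Subgroup G) := by
      have h1 : (x : G) * t * (x : G)⁻¹ ∈ (R : Subgroup G) := hT ht
      have h2 : (x : G)⁻¹ * ((x : G) * t * (x : G)⁻¹) * (x : G) ∈ (R : Subgroup G) :=
        Subgroup.mul_mem _ (Subgroup.mul_mem _ (Subgroup.inv_mem _ x.2) h1) x.2
      simpa [mul_assoc] using h2
    have h1 := (hN ⟨t, htR⟩).mpr (Subgroup.mem_subgroupOf.mpr ht)
    exact Subgroup.mem_subgroupOf.mp h1

/-- **Fusion of a marked central element in groups with central Sylow intersections.** -/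
theorem marked_unique (S : Sylow 2 G) (c : G)
    (hN : ∀ g : G, g • S = S → g * c * g⁻¹ = c)
    (hCI : ∀ P Q : Sylow 2 G, P ≠ Q → ∃ U : Sylow 2 G,
      (P : Subgroup G) ⊓ (Q : Subgroup G) ≤
        (Subgroup.center ↥(U : Subgroup G)).map (U : Subgroup G).subtype)
    (hcS : c ∈ (S : Subgroup G)) :
    ∀ g₁ g₂ : G, g₁ * c * g₁⁻¹ ∈ ((g₂ • S : Sylow 2 G) : Subgroup G) →
      g₁ * c * g₁⁻¹ = g₂ * c * g₂⁻¹ := by
  have key : ∀ n : ℕ, ∀ g₁ g₂ : G,
      Nat.card G - Nat.card ↥(((g₁ • S : Sylow 2 G) : Subgroup G) ⊓ ((g₂ • S : Sylow 2 G) : Subgroup G)) = n →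
      g₁ * c * g₁⁻¹ ∈ ((g₂ • S : Sylow 2 G) : Subgroup G) →
      g₁ * c * g₁⁻¹ = g₂ * c * g₂⁻¹ := by
    intro n
    induction n using Nat.strong_induction_on with
    | _ n ih =>
      intro g₁ g₂ hn ha
      by_cases hPQ : g₁ • S = g₂ • S
      · have h1 : (g₂⁻¹ * g₁) • S = S := by
          rw [mul_smul, hPQ, inv_smul_smul]
        have h2 := hN _ h1
        have h3 : g₁ * c * g₁⁻¹ = g₂ * ((g₂⁻¹ * g₁) * c * (g₂⁻¹ * g₁)⁻¹) * g₂⁻¹ := by group
        rw [h3, h2]
      · set P : Sylow 2 G := g₁ • S with hP
        set Q : Sylow 2 G := g₂ • S with hQ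
        set T : Subgroup G := (P : Subgroup G) ⊓ Q with hT
        set a := g₁ * c * g₁⁻¹ with ha'
        have haP : a ∈ (P : Subgroup G) := conj_mem_smul_sylow S g₁ c hcS
        have haT : a ∈ T := ⟨haP, ha⟩
        obtain ⟨U, hU⟩ := hCI P Q hPQ
        have hTU : ∀ t ∈ T, t ∈ (U : Subgroup G) ∧ ∀ u ∈ (U : Subgroup G), u * t = t * u := by
          intro t ht
          obtain ⟨t', ht', rfl⟩ := hU ht
          refine ⟨t'.2, fun u hu => ?_⟩
          have := (Subgroup.mem_center_iff.mp ht') ⟨u, hu⟩
          exact congrArg Subtype.val this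
        have hUC : (U : Subgroup G) ≤ Subgroup.centralizer (T : Set G) := by
          intro u hu
          rw [Subgroup.mem_centralizer_iff]
          intro t ht
          exact ((hTU t ht).2 u hu).symm
        have hCN : Subgroup.centralizer (T : Set G) ≤ Subgroup.normalizer (T : Set G) := by
          intro u hu
          rw [Subgroup.mem_normalizer_iff]
          intro t
          rw [Subgroup.mem_centralizer_iff] at hu
          constructor
          · intro ht
            rw [← hu t ht, mul_inv_cancel_right]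
            exact ht
          · intro ht
            have h5 : u * t = u * (u * t * u⁻¹) := by
              have := hu _ ht
              simpa [mul_assoc] using this
            have h3 : t = u * t * u⁻¹ := mul_left_cancel h5
            rwa [← h3] at ht
        -- the construction of `V`
        have hV : ∀ R : Sylow 2 G, T ≤ R → T ≠ R →
            ∃ V : Sylow 2 G, (V : Subgroup G) ≤ Subgroup.centralizer (T : Set G) ∧ T ≤ V ∧
              ∃ x ∈ (R : Subgroup G), x ∉ T ∧ x ∈ (V : Subgroup G) := by
          intro R hTR hne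
          obtain ⟨x, hxR, hxT, hxN⟩ := exists_mem_normalizer_of_lt R hTR hne
          let A : Subgroup G := (R : Subgroup G) ⊓ Subgroup.normalizer (T : Set G)
          have hA : IsPGroup 2 A := R.isPGroup'.to_le inf_le_left
          obtain ⟨k, hk, hAk⟩ := sylow_cover (Subgroup.normalizer (T : Set G)) U (hUC.trans hCN) A hA
            inf_le_right
          have hkm := Subgroup.mem_normalizer_iff.mp hk
          have hkinv : ∀ t ∈ T, k⁻¹ * t * k ∈ T := by
            intro t ht
            have := hkm (k⁻¹ * t * k)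
            rw [this]
            simpa [mul_assoc] using ht
          refine ⟨k • U, ?_, ?_, x, hxR, hxT, hAk ⟨hxR, hxN⟩⟩
          · intro u hu
            rw [mem_smul_sylow] at hu
            rw [Subgroup.mem_centralizer_iff]
            intro t ht
            have h1 := (hTU _ (hkinv t ht)).2 _ hu
            have h2 : (k⁻¹ * u * k) * (k⁻¹ * t * k) = k⁻¹ * (u * t) * k := by group
            have h3 : (k⁻¹ * t * k) * (k⁻¹ * u * k) = k⁻¹ * (t * u) * k := by group
            rw [h2, h3] at h1
            have h4 := mul_right_cancel (mul_left_cancel (a := k⁻¹) (by simpa [mul_assoc] using h1) :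
              u * t * k = t * u * k)
            exact h4.symm
          · intro t ht
            rw [mem_smul_sylow]
            exact (hTU _ (hkinv t ht)).1
        have hcard : ∀ R V : Subgroup G, T ≤ R ⊓ V → (∃ x ∈ R, x ∉ T ∧ x ∈ V) →
            Nat.card T < Nat.card ↥(R ⊓ V) := by
          intro R V hle ⟨x, hxR, hxT, hxV⟩
          by_contra hc
          have := Subgroup.eq_of_le_of_card_ge hle (by omega)
          apply hxT
          rw [this]
          exact ⟨hxR, hxV⟩
        have hnP : T ≠ P := by
          intro h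
          apply hPQ
          have h1 : (P : Subgroup G) ≤ Q := by
            rw [← h]
            exact inf_le_right
          exact sylow_eq_of_le h1
        have hnQ : T ≠ Q := by
          intro h
          apply hPQ
          have h1 : (Q : Subgroup G) ≤ P := by
            rw [← h]
            exact inf_le_left
          exact (sylow_eq_of_le h1).symm
        obtain ⟨VP, hVPc, hVPT, hVPx⟩ := hV P inf_le_left hnP
        obtain ⟨VQ, hVQc, hVQT, hVQx⟩ := hV Q inf_le_right hnQ
        obtain ⟨h, hhC, hh⟩ := sylow_conj_in _ VP VQ hVPc hVQc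
        obtain ⟨gP, hgP⟩ := MulAction.exists_smul_eq G S VP
        have hle : ∀ X : Subgroup G, Nat.card X ≤ Nat.card G := fun X => Subgroup.card_le_card_group X
        -- first application
        have h1 : a = gP * c * gP⁻¹ := by
          have hc1 := hcard (P : Subgroup G) VP (le_inf inf_le_left hVPT) hVPx
          refine ih _ ?_ g₁ gP rfl ?_
          · rw [← hn, ← hP, hgP]
            have := hle ((P : Subgroup G) ⊓ (VP : Subgroup G))
            have h' := hle T
            omega
          · rw [hgP]
            exact hVPT haT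
        -- the conjugate
        have hS2 : (h * gP) • S = VQ := by
          rw [mul_smul, hgP, hh]
        have h2 : (h * gP) * c * (h * gP)⁻¹ = a := by
          have e : (h * gP) * c * (h * gP)⁻¹ = h * (gP * c * gP⁻¹) * h⁻¹ := by group
          rw [e, ← h1]
          have := (Subgroup.mem_centralizer_iff.mp hhC) a haT
          rw [← this, mul_inv_cancel_right]
        have h3 : a = g₂ * c * g₂⁻¹ := by
          have hc1 := hcard (Q : Subgroup G) VQ (le_inf inf_le_right hVQT) hVQx
          have h4 := ih _ ?_ (h * gP) g₂ rfl (by rw [h2]; exact ha)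
          · rw [h2] at h4
            exact h4
          · rw [← hn, hS2, ← hQ, inf_comm]
            have := hle ((Q : Subgroup G) ⊓ (VQ : Subgroup G))
            have h' := hle T
            omega
        exact h3
  intro g₁ g₂ h
  exact key _ g₁ g₂ rfl h

/-- A marked element fixed by `N(S)` in a group with central Sylow intersections is weakly closed. -/
theorem marked_weakly_closed (S : Sylow 2 G) (c : G)
    (hN : ∀ g : G, g • S = S → g * c * g⁻¹ = c)
    (hCI : ∀ P Q : Sylow 2 G, P ≠ Q → ∃ U : Sylow 2 G,
      (P : Subgroup G) ⊓ (Q : Subgroup G) ≤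
        (Subgroup.center ↥(U : Subgroup G)).map (U : Subgroup G).subtype)
    (hcS : c ∈ (S : Subgroup G)) (g : G) (hg : g * c * g⁻¹ ∈ (S : Subgroup G)) :
    g * c * g⁻¹ = c := by
  have h := marked_unique S c hN hCI hcS g 1 (by simpa using hg)
  simpa using h

/-- The unique involution of a cyclic group. -/
theorem eq_of_order_two_of_cyclic {C : Type*} [Group C] [Finite C] [IsCyclic C] {a b : C}
    (ha : orderOf a = 2) (hb : orderOf b = 2) : a = b := by
  classical
  haveI := Fintype.ofFinite C
  by_contra hne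
  have h := IsCyclic.card_pow_eq_one_le (α := C) (n := 2) (by norm_num)
  have ha1 : a ≠ 1 := by
    rintro rfl
    simp at ha
  have hb1 : b ≠ 1 := by
    rintro rfl
    simp at hb
  have hsub : ({1, a, b} : Finset C) ⊆ Finset.univ.filter fun x => x ^ 2 = 1 := by
    intro x hx
    simp only [Finset.mem_insert, Finset.mem_singleton] at hx
    rw [Finset.mem_filter]
    refine ⟨Finset.mem_univ _, ?_⟩
    rcases hx with rfl | rfl | rfl
    · simp
    · rw [← ha]
      exact pow_orderOf_eq_one _
    · rw [← hb]
      exact pow_orderOf_eq_one _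
  have hc := Finset.card_le_card hsub
  rw [Finset.card_insert_of_notMem, Finset.card_insert_of_notMem, Finset.card_singleton] at hc
  · omega
  · simpa using hne
  · simp [ha1.symm, hb1.symm]

/-- An element of a cyclic characteristic subgroup of order two is fixed by the normalizer. -/
theorem conj_fixed_of_char (S : Subgroup G) (C : Subgroup S) (hCc : IsCyclic C) (hCh : C.Characteristic)
    (c : S) (hc : c ∈ C) (hc2 : orderOf c = 2) (g : G)
    (hg : ∀ s, g * s * g⁻¹ ∈ S ↔ s ∈ S) : g * (c : G) * g⁻¹ = c := by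
  have hg' : ∀ s ∈ S, g⁻¹ * s * g ∈ S := by
    intro s hs
    rw [← hg]
    simpa [mul_assoc] using hs
  let f : S ≃* S :=
    { toFun := fun s => ⟨g * s * g⁻¹, (hg s).mpr s.2⟩
      invFun := fun s => ⟨g⁻¹ * s * g, hg' s s.2⟩
      left_inv := fun s => by
        apply Subtype.ext
        simp [mul_assoc]
      right_inv := fun s => by
        apply Subtype.ext
        simp [mul_assoc]
      map_mul' := fun a b => by
        apply Subtype.ext
        simp [mul_assoc] }
  have hfc : f c ∈ C := by
    have h1 := hCh.fixed f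
    have h2 : f c ∈ C.comap f.symm.toMonoidHom := by
      show f.symm (f c) ∈ C
      simpa using hc
    have h3 := hCh.fixed f.symm
    rw [h3] at h2
    exact h2
  have h1 : orderOf (⟨c, hc⟩ : C) = 2 := by
    rw [Subgroup.orderOf_mk]
    exact hc2
  have h2 : orderOf (⟨f c, hfc⟩ : C) = 2 := by
    rw [Subgroup.orderOf_mk, MulEquiv.orderOf_eq]
    exact hc2
  have h3 := eq_of_order_two_of_cyclic h2 h1
  have h4 : f c = c := congrArg Subtype.val h3
  exact congrArg Subtype.val h4

end Cfsg.Agent.Lib.ZStar
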